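import Mathlib
import Cfsg.Agent.Lib.Helper22.Iso.Defs
import Cfsg.Agent.Lib.Helper23.Transport

set_option autoImplicit false

/-!
ISO (S3044 + S3045) package PkgAct: the conjugation action of `G` on `Y / O_p(Y)`.
-/

namespace Cfsg.Agent.Lib.Helper87.Iso

open Cfsg.Agent.Lib.Helper22.Iso

universe u

theorem pkgAct : PkgAct.{u} := by
  intro G _ p Y _ _
  haveI hc : (Cfsg.pCore p ↥Y).Characteristic := Cfsg.Agent.Lib.Helper23.pCore_characteristic p ↥Y
  have hmap : ∀ φ : ↥Y ≃* ↥Y, (Cfsg.pCore p ↥Y).map (φ : ↥Y →* ↥Y) = Cfsg.pCore p ↥Y :=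
    fun φ => Subgroup.characteristic_iff_map_eq.1 hc φ
  refine ⟨{ toFun := fun g => QuotientGroup.congr _ _ (MulAut.conjNormal g) (hmap _)
            map_one' := ?_
            map_mul' := ?_ }, ?_⟩
  · apply MulEquiv.ext
    intro x
    obtain ⟨y, rfl⟩ := QuotientGroup.mk_surjective x
    rw [QuotientGroup.congr_mk]
    simp
  · intro g h
    apply MulEquiv.ext
    intro x
    obtain ⟨y, rfl⟩ := QuotientGroup.mk_surjective x
    rw [MulAut.mul_apply, QuotientGroup.congr_mk, QuotientGroup.congr_mk, QuotientGroup.congr_mk,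
      map_mul, MulAut.mul_apply]
  · intro g y
    exact QuotientGroup.congr_mk (Cfsg.pCore p ↥Y) (Cfsg.pCore p ↥Y) (MulAut.conjNormal g) (hmap _) y

end Cfsg.Agent.Lib.Helper87.Iso
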