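import Mathlib
import Cfsg.Agent.Lib.Helper22.Iso.Defs

set_option autoImplicit false

/-!
ISO (S3044 + S3045) package PkgBack: translating the abstract conclusions back to `G`.
-/

namespace Cfsg.Agent.Lib.Helper87.Iso

open Cfsg.Agent.Lib.Helper22.Iso

universe u

theorem pkgBack : PkgBack.{u} := by
  intro G _ _ p _ Y T _ _ σ hσ
  constructor
  · intro hTY hpush y hy
    have h1 : (QuotientGroup.mk' (Cfsg.pCore p ↥Y) ⟨y, hy⟩) ∈ push p Y T := by
      rw [hpush]; exact Subgroup.mem_top _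
    obtain ⟨t', ht', hteq⟩ := Subgroup.mem_map.1 h1
    have h2 : t'⁻¹ * ⟨y, hy⟩ ∈ Cfsg.pCore p ↥Y := by
      have h3 : (QuotientGroup.mk t' : ↥Y ⧸ Cfsg.pCore p ↥Y) = QuotientGroup.mk ⟨y, hy⟩ := hteq
      exact QuotientGroup.eq.1 h3
    have h4 : (t' : G) ∈ T := Subgroup.mem_subgroupOf.1 ht'
    have h5 : ((t'⁻¹ * ⟨y, hy⟩ : ↥Y) : G) ∈ opOf p Y :=
      Subgroup.mem_map.2 ⟨_, h2, rfl⟩
    have h6 : (t' : G) * ((t'⁻¹ * ⟨y, hy⟩ : ↥Y) : G) ∈ T ⊔ opOf p Y := Subgroup.mul_mem_sup h4 h5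
    have h7 : (t' : G) * ((t'⁻¹ * ⟨y, hy⟩ : ↥Y) : G) = y := by
      rw [Subgroup.coe_mul, Subgroup.coe_inv]
      simp
    rwa [h7] at h6
  · intro g K
    ext x
    constructor
    · intro hx
      obtain ⟨y', hy', rfl⟩ := Subgroup.mem_map.1 hx
      rw [Subgroup.mem_comap] at hy'
      obtain ⟨k, hk, hkeq⟩ := Subgroup.mem_map.1 hy'
      have hkeq' : σ g k = QuotientGroup.mk' (Cfsg.pCore p ↥Y) y' := hkeq
      have h1 : QuotientGroup.mk' (Cfsg.pCore p ↥Y) (MulAut.conjNormal g⁻¹ y') = k := by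
        rw [← hσ g⁻¹ y', ← hkeq', ← MulAut.mul_apply, ← map_mul, inv_mul_cancel, map_one]
        rfl
      refine Subgroup.mem_map.2 ⟨((MulAut.conjNormal g⁻¹ y' : ↥Y) : G), ?_, ?_⟩
      · refine Subgroup.mem_map.2 ⟨MulAut.conjNormal g⁻¹ y', ?_, rfl⟩
        rw [Subgroup.mem_comap, h1]
        exact hk
      · rw [MulAut.conjNormal_apply]
        simp [mul_assoc]
    · intro hx
      obtain ⟨z, hz, rfl⟩ := Subgroup.mem_map.1 hx
      obtain ⟨z', hz', rfl⟩ := Subgroup.mem_map.1 hz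
      rw [Subgroup.mem_comap] at hz'
      refine Subgroup.mem_map.2 ⟨MulAut.conjNormal g z', ?_, ?_⟩
      · rw [Subgroup.mem_comap, ← hσ g z']
        exact Subgroup.mem_map.2 ⟨_, hz', rfl⟩
      · rw [Subgroup.coe_subtype, MulAut.conjNormal_apply]
        rfl

end Cfsg.Agent.Lib.Helper87.Iso
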